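import Cfsg.Agent.Lib.Coprime.PQ
import Mathlib.GroupTheory.Nilpotent
import Mathlib.GroupTheory.PGroup

/-!
If an abelian `p`-group `E` normalizes a `p'`-group `Q`, both act on a `p`-group `R` and `Q`
centralizes the fixed points of `E`, then `Q` centralizes `R`, provided `p` is odd or the
`p`-group `RE` has class at most two.
-/

set_option autoImplicit false
set_option linter.style.haveILetI false
set_option linter.unusedSectionVars false

namespace Cfsg.Agent.Lib.Components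

open Subgroup
open scoped commutatorElement

section abelian

variable {p : ℕ} [hp : Fact p.Prime]

/-- The commutative case. -/
theorem comm_fixed_all {W E Q : Type*} [CommGroup W] [Finite W] [Group E] [Group Q] [Fintype Q]
    (hW : IsPGroup p W) (hE : IsPGroup p E) (hQ : (Nat.card Q).Coprime p)
    (φ : E →* MulAut W) (ψ : Q →* MulAut W) (σ : E → Q ≃ Q)
    (hσ : ∀ e q w, φ e (ψ q w) = ψ (σ e q) (φ e w))
    (hfix : ∀ w, (∀ e, φ e w = w) → ∀ q, ψ q w = w) (w : W) (q : Q) : ψ q w = w := by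
  let K : Subgroup W :=
    { carrier := {w | ∀ q, ψ q w = w}
      one_mem' := fun q => map_one _
      mul_mem' := fun {a b} ha hb q => by rw [map_mul, ha q, hb q]
      inv_mem' := fun {a} ha q => by rw [map_inv, ha q] }
  have hKE : ∀ e w, w ∈ K → φ e w ∈ K := fun e w hw q => by
    conv_lhs => rw [← (σ e).apply_symm_apply q, ← hσ, hw _]
  suffices hKt : K = ⊤ from (hKt.ge (mem_top w) : w ∈ K) q
  by_contra hne
  letI : MulAction E (W ⧸ K) :=
    { smul := fun e => QuotientGroup.map K K (φ e).toMonoidHom fun w hw => hKE e w hw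
      one_smul := fun x => by
        induction x using QuotientGroup.induction_on with
        | H w => show QuotientGroup.mk _ = _; simp
      mul_smul := fun a b x => by
        induction x using QuotientGroup.induction_on with
        | H w => show QuotientGroup.mk _ = QuotientGroup.mk _; simp }
  have hdvd : p ∣ Nat.card (W ⧸ K) := by
    have h1 : K.index ≠ 1 := fun h => hne (index_eq_one.1 h)
    obtain ⟨n, hn⟩ := IsPGroup.iff_card.1 (hW.to_quotient K)
    rw [index_eq_card, hn] at h1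
    rcases n with _ | n
    · simp at h1
    · rw [hn]; exact dvd_pow_self p n.succ_ne_zero
  obtain ⟨x, hx, hx1⟩ := hE.exists_fixed_point_of_prime_dvd_card_of_fixed_point _ hdvd
    (a := (1 : W ⧸ K)) (fun e => map_one (QuotientGroup.map K K (φ e).toMonoidHom fun w hw => hKE e w hw))
  obtain ⟨r, rfl⟩ := QuotientGroup.mk_surjective x
  have hr : ∀ e, r⁻¹ * φ e r ∈ K := fun e => QuotientGroup.eq.1 (hx e).symm
  let F := ∏ q : Q, ψ q r
  let N := Fintype.card Q
  have hF : ∀ s, ψ s F = F := fun s => by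
    rw [map_prod]
    exact Fintype.prod_equiv (Equiv.mulLeft s) _ _ fun q => by
      rw [Equiv.coe_mulLeft, map_mul, MulAut.mul_apply]
  have hFe : ∀ e, φ e F = F * (r⁻¹ * φ e r) ^ N := fun e => by
    rw [map_prod]
    calc ∏ q, φ e (ψ q r) = ∏ q, ψ (σ e q) (r * (r⁻¹ * φ e r)) := by
          simp only [hσ, mul_inv_cancel_left]
      _ = ∏ q, ψ q (r * (r⁻¹ * φ e r)) := (σ e).prod_comp fun q => ψ q (r * (r⁻¹ * φ e r))
      _ = ∏ q, ψ q r * (r⁻¹ * φ e r) := Finset.prod_congr rfl fun q _ => by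
          rw [map_mul, hr e q]
      _ = F * (r⁻¹ * φ e r) ^ N := by rw [Finset.prod_mul_distrib, Finset.prod_const]; rfl
  have hw := hfix (r ^ N * F⁻¹) fun e => by
    rw [map_mul, map_pow, map_inv, hFe, mul_inv_rev, mul_pow, inv_pow]
    group
  refine hx1 (Eq.symm ((QuotientGroup.eq_one_iff r).2 ?_))
  intro s
  have h1 := hw s
  rw [map_mul, map_pow, map_inv, hF, mul_left_inj] at h1
  have h2 : (ψ s r * r⁻¹) ^ N = 1 := by rw [mul_pow, h1, inv_pow, mul_inv_cancel]
  obtain ⟨k, hk⟩ := hW (ψ s r * r⁻¹)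
  have h3 : orderOf (ψ s r * r⁻¹) = 1 :=
    Nat.eq_one_of_dvd_coprimes ((show N.Coprime p by rwa [Nat.card_eq_fintype_card] at hQ).pow_right k)
      (orderOf_dvd_of_pow_eq_one h2) (orderOf_dvd_of_pow_eq_one hk)
  exact mul_inv_eq_one.1 (orderOf_eq_one_iff.1 h3)

end abelian

/-! ### The linearization of a group of class two and odd order -/

/-- A copy of `R` carrying the commutative multiplication `x y [y, x] ^ (1/2)`. -/
structure Baer (R : Type*) where
  /-- The underlying element. -/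
  val : R

section baer

variable {R : Type*} [Group R] (h2 : ∀ a b c : R, Commute ⁅a, b⁆ c)
include h2

lemma comm_mul_right (a b c : R) : ⁅a, b * c⁆ = ⁅a, b⁆ * ⁅a, c⁆ := by
  have h := h2 a c b⁻¹
  calc ⁅a, b * c⁆ = ⁅a, b⁆ * (b * (⁅a, c⁆ * b⁻¹)) := by simp only [commutatorElement_def]; group
    _ = ⁅a, b⁆ * ⁅a, c⁆ := by rw [h.eq]; group

lemma comm_mul_left (a b c : R) : ⁅a * b, c⁆ = ⁅a, c⁆ * ⁅b, c⁆ := by
  calc ⁅a * b, c⁆ = a * ⁅b, c⁆ * a⁻¹ * ⁅a, c⁆ := by simp only [commutatorElement_def]; group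
    _ = ⁅b, c⁆ * ⁅a, c⁆ := by rw [← (h2 b c a).eq]; group
    _ = _ := (h2 b c _).eq

lemma comm_central_right (a x y : R) (m : ℕ) : ⁅a, ⁅x, y⁆ ^ m⁆ = 1 :=
  commutatorElement_eq_one_iff_commute.2 ((h2 x y a).pow_left m).symm

lemma comm_central_left (a x y : R) (m : ℕ) : ⁅⁅x, y⁆ ^ m, a⁆ = 1 :=
  commutatorElement_eq_one_iff_commute.2 ((h2 x y a).pow_left m)

/-- The commutative group structure. -/
@[reducible]
noncomputable def baerGroup (m : ℕ) (hm : ∀ a b : R, ⁅a, b⁆ ^ (2 * m) = ⁅a, b⁆) :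
    CommGroup (Baer R) where
  mul x y := ⟨x.val * y.val * ⁅y.val, x.val⁆ ^ m⟩
  one := ⟨1⟩
  inv x := ⟨x.val⁻¹⟩
  mul_assoc := by
    rintro ⟨x⟩ ⟨y⟩ ⟨z⟩
    apply congrArg Baer.mk
    change (x * y * ⁅y, x⁆ ^ m) * z * ⁅z, x * y * ⁅y, x⁆ ^ m⁆ ^ m =
      x * (y * z * ⁅z, y⁆ ^ m) * ⁅y * z * ⁅z, y⁆ ^ m, x⁆ ^ m
    rw [comm_mul_right h2, comm_mul_right h2, comm_mul_left h2 (y * z), comm_mul_left h2 y,
      comm_central_right h2, comm_central_left h2, mul_one, mul_one,
      (h2 z x _).mul_pow, (h2 y x _).mul_pow]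
    have e1 : ⁅y, x⁆ ^ m * z = z * ⁅y, x⁆ ^ m := ((h2 y x z).pow_left m).eq
    have e2 : ⁅y, x⁆ ^ m * ⁅z, x⁆ ^ m * ⁅z, y⁆ ^ m = ⁅z, y⁆ ^ m * (⁅y, x⁆ ^ m * ⁅z, x⁆ ^ m) :=
      ((h2 z y _).pow_left m).symm.eq
    calc x * y * ⁅y, x⁆ ^ m * z * (⁅z, x⁆ ^ m * ⁅z, y⁆ ^ m)
        = x * y * (⁅y, x⁆ ^ m * z) * ⁅z, x⁆ ^ m * ⁅z, y⁆ ^ m := by group
      _ = x * y * z * (⁅y, x⁆ ^ m * ⁅z, x⁆ ^ m * ⁅z, y⁆ ^ m) := by rw [e1]; group
      _ = _ := by rw [e2]; group
  one_mul := by rintro ⟨x⟩; exact congrArg Baer.mk (show 1 * x * ⁅x, (1 : R)⁆ ^ m = x by simp)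
  mul_one := by rintro ⟨x⟩; exact congrArg Baer.mk (show x * 1 * ⁅(1 : R), x⁆ ^ m = x by simp)
  inv_mul_cancel := by
    rintro ⟨x⟩
    exact congrArg Baer.mk (by simp [commutatorElement_def])
  mul_comm := by
    rintro ⟨x⟩ ⟨y⟩
    apply congrArg Baer.mk
    change x * y * ⁅y, x⁆ ^ m = y * x * ⁅x, y⁆ ^ m
    have e : y * x = ⁅y, x⁆ * (x * y) := by simp only [commutatorElement_def]; group
    rw [e, (h2 y x (x * y)).eq, ← commutatorElement_inv y x, inv_pow]
    rw [eq_mul_inv_iff_mul_eq, mul_assoc (x * y), ← pow_add, ← two_mul, hm]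

end baer

variable {G : Type*} [Group G] [Finite G] {p : ℕ} [hp : Fact p.Prime]

lemma translate_eq_one {R : Subgroup G} (hR : IsPGroup p ↥R) {x r d : G}
    (hx : (orderOf x).Coprime p) (hd : d ∈ R) (hxd : x * d = d * x)
    (h : x * r * x⁻¹ = d * r) : d = 1 := by
  have hn : ∀ n : ℕ, x ^ n * r * (x ^ n)⁻¹ = d ^ n * r := by
    intro n
    induction n with
    | zero => simp
    | succ n ih =>
      calc x ^ (n + 1) * r * (x ^ (n + 1))⁻¹ = x * (x ^ n * r * (x ^ n)⁻¹) * x⁻¹ := by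
            rw [pow_succ']; group
        _ = (x * d ^ n) * r * x⁻¹ := by rw [ih]; group
        _ = d ^ n * (x * r * x⁻¹) := by rw [((show Commute x d from hxd).pow_right n).eq]; group
        _ = d ^ (n + 1) * r := by rw [h, pow_succ, mul_assoc]
  have h1 := hn (orderOf x)
  rw [pow_orderOf_eq_one, one_mul, inv_one, mul_one, right_eq_mul] at h1
  obtain ⟨k, hk⟩ := hR ⟨d, hd⟩
  exact orderOf_eq_one_iff.1 (Nat.eq_one_of_dvd_coprimes (hx.pow_right k)
    (orderOf_dvd_of_pow_eq_one h1)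
    (orderOf_dvd_of_pow_eq_one (by simpa using congrArg Subtype.val hk)))

lemma orderOf_coprime_of_mem {Q : Subgroup G} (hQ : (Nat.card ↥Q).Coprime p) {x : G} (hx : x ∈ Q) :
    (orderOf x).Coprime p :=
  hQ.coprime_dvd_left (Subgroup.orderOf_dvd_natCard Q hx)

lemma map_subtype_commutator_lt {R : Subgroup G} [Group.IsSolvable ↥R] (hR : R ≠ ⊥) :
    ⁅R, R⁆ < R := by
  haveI : Nontrivial ↥R := nontrivial_iff_ne_bot R |>.2 hR
  refine lt_of_le_of_ne (le_normalizer_iff_commutator_le_left.1 le_normalizer) fun he => ?_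
  rw [← map_subtype_commutator] at he
  refine (Group.IsSolvable.commutator_lt_top_of_nontrivial ↥R).ne
    (map_injective R.subtype_injective ?_)
  rw [he, ← MonoidHom.range_eq_map, range_subtype]

lemma conj_mem_normalizer_commutator {A B : Subgroup G} {g : G}
    (hA : g ∈ normalizer (A : Set G)) (hB : g ∈ normalizer (B : Set G)) :
    g ∈ normalizer ((⁅A, B⁆ : Subgroup G) : Set G) := by
  refine Coprime.mem_normalizer_of_conj_smul_eq ?_
  show (⁅A, B⁆).map (MulAut.conj g).toMonoidHom = ⁅A, B⁆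
  rw [map_commutator]
  exact congrArg₂ (fun a b : Subgroup G => ⁅a, b⁆) (Coprime.conj_smul_eq_self hA)
    (Coprime.conj_smul_eq_self hB)

/-- The case of odd `p`. -/
theorem le_centralizer_of_fixed_odd (hp2 : p ≠ 2) {E Q : Subgroup G} (hE : IsPGroup p ↥E)
    (hQ : (Nat.card ↥Q).Coprime p) (hEQ : E ≤ normalizer (Q : Set G)) {R : Subgroup G}
    (hR : IsPGroup p ↥R) (hER : E ≤ normalizer (R : Set G)) (hQR : Q ≤ normalizer (R : Set G))
    (hfix : R ⊓ centralizer (E : Set G) ≤ centralizer (Q : Set G)) :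
    R ≤ centralizer (Q : Set G) := by
  induction h : Nat.card ↥R using Nat.strongRecOn generalizing R with
  | ind n ih =>
  subst h
  by_cases hbot : R = ⊥
  · rw [hbot]; exact bot_le
  have sub : ∀ {S : Subgroup G}, S ≤ R → S ≠ R → E ≤ normalizer (S : Set G) →
      Q ≤ normalizer (S : Set G) → S ≤ centralizer (Q : Set G) := fun {S} hle hne h₁ h₂ =>
    ih _ (lt_of_le_of_ne (card_le_of_le hle) fun e => hne (eq_of_le_of_card_ge hle e.ge))
      (hR.to_le hle) h₁ h₂ ((inf_le_inf_right _ hle).trans hfix) rfl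
  haveI := hR.isNilpotent
  have hD : ⁅R, R⁆ ≤ centralizer (Q : Set G) := by
    refine sub (le_normalizer_iff_commutator_le_left.1 le_normalizer) ?_
      (fun g hg => conj_mem_normalizer_commutator (hER hg) (hER hg))
      (fun g hg => conj_mem_normalizer_commutator (hQR hg) (hQR hg))
    intro he
    haveI : Group.IsSolvable ↥R := inferInstance
    exact hbot (Classical.byContradiction fun hb => (map_subtype_commutator_lt hb).ne he)
  have hRQ : ⁅R, Q⁆ ≤ R := le_normalizer_iff_commutator_le_left.1 hQR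
  by_cases he : ⁅R, Q⁆ = R
  swap
  · have h1 := sub hRQ he (fun g hg => conj_mem_normalizer_commutator (hER hg) (hEQ hg))
      (fun g hg => conj_mem_normalizer_commutator (hQR hg) (le_normalizer hg))
    intro r hr
    refine mem_centralizer_iff.2 fun x hx => ?_
    have hd : x * r * x⁻¹ * r⁻¹ ∈ ⁅R, Q⁆ := by
      rw [commutator_comm]; exact commutator_mem_commutator hx hr
    have := translate_eq_one hR (r := r) (orderOf_coprime_of_mem hQ hx) (hRQ hd)
      (mem_centralizer_iff.1 (h1 hd) x hx) (by group)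
    exact mul_inv_eq_iff_eq_mul.1 (mul_inv_eq_one.1 this)
  have hRD : R ≤ centralizer ((⁅R, R⁆ : Subgroup G) : Set G) := by
    refine he.ge.trans (commutator_le.2 fun r hr x hx => ?_)
    have hxC : x ∈ centralizer ((⁅R, R⁆ : Subgroup G) : Set G) := le_centralizer_iff.1 hD hx
    have hrC : r * x * r⁻¹ ∈ centralizer ((⁅R, R⁆ : Subgroup G) : Set G) := by
      refine mem_centralizer_iff.2 fun d hd => ?_
      have hd' : r⁻¹ * d * r ∈ ⁅R, R⁆ :=
        (mem_normalizer_iff''.1 (conj_mem_normalizer_commutator (le_normalizer hr) (le_normalizer hr)) d).1 hd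
      have h := mem_centralizer_iff.1 hxC _ hd'
      calc d * (r * x * r⁻¹) = r * ((r⁻¹ * d * r) * x) * r⁻¹ := by group
        _ = r * (x * (r⁻¹ * d * r)) * r⁻¹ := by rw [h]
        _ = r * x * r⁻¹ * d := by group
    exact mul_mem hrC (inv_mem hxC)
  have h2 : ∀ a b c : ↥R, Commute ⁅a, b⁆ c := fun a b c => Subtype.ext
    (mem_centralizer_iff.1 (hRD c.2) _ (commutator_mem_commutator a.2 b.2))
  obtain ⟨k, hk⟩ := IsPGroup.iff_card.1 hR
  have hnodd : Odd (Nat.card ↥R) := hk ▸ (hp.out.odd_of_ne_two hp2).pow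
  obtain ⟨m, hm⟩ := hnodd
  have hm2 : ∀ a b : ↥R, ⁅a, b⁆ ^ (2 * (m + 1)) = ⁅a, b⁆ := fun a b => by
    rw [show 2 * (m + 1) = Nat.card ↥R + 1 by omega, pow_succ, pow_card_eq_one', one_mul]
  letI := baerGroup h2 (m + 1) hm2
  let eqv : ↥R ≃ Baer ↥R := ⟨Baer.mk, Baer.val, fun _ => rfl, fun _ => rfl⟩
  haveI : Finite (Baer ↥R) := Finite.of_equiv _ eqv
  let lift : MulAut ↥R →* MulAut (Baer ↥R) :=
    { toFun := fun f =>
        { toFun := fun x => ⟨f x.val⟩
          invFun := fun x => ⟨f.symm x.val⟩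
          left_inv := fun x => by simp
          right_inv := fun x => by simp
          map_mul' := fun x y => by
            apply congrArg Baer.mk
            change f (x.val * y.val * ⁅y.val, x.val⁆ ^ (m + 1)) =
              f x.val * f y.val * ⁅f y.val, f x.val⁆ ^ (m + 1)
            rw [map_mul, map_mul, map_pow, map_commutatorElement] }
      map_one' := by ext x; rfl
      map_mul' := fun f g => by ext x; rfl }
  let φ := lift.comp (R.normalizerMonoidHom.comp (inclusion hER))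
  let ψ := lift.comp (R.normalizerMonoidHom.comp (inclusion hQR))
  let σ : ↥E → ↥Q ≃ ↥Q := fun e => (Q.normalizerMonoidHom (inclusion hEQ e)).toEquiv
  haveI : Fintype ↥Q := Fintype.ofFinite _
  have hval : ∀ {K : Subgroup G} (hK : K ≤ normalizer (R : Set G)) (g : ↥K) (w : Baer ↥R),
      ((lift.comp (R.normalizerMonoidHom.comp (inclusion hK)) g w).val : G) =
        (g : G) * (w.val : G) * (g : G)⁻¹ := fun _ _ _ => rfl
  have hW : IsPGroup p (Baer ↥R) := IsPGroup.of_card (n := k) (by rw [← hk]; exact (Nat.card_congr eqv).symm)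
  have hall := comm_fixed_all hW hE hQ φ ψ σ (fun e x w => by
    apply eqv.symm.injective
    apply Subtype.ext
    change ((φ e (ψ x w)).val : G) = ((ψ (σ e x) (φ e w)).val : G)
    rw [hval hER, hval hQR, hval hQR, hval hER]
    show (e : G) * ((x : G) * (w.val : G) * (x : G)⁻¹) * (e : G)⁻¹ = ((e : G) * (x : G) * (e : G)⁻¹) * ((e : G) * (w.val : G) * (e : G)⁻¹) * ((e : G) * (x : G) * (e : G)⁻¹)⁻¹
    group) (fun w hw x => by
      apply eqv.symm.injective
      apply Subtype.ext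
      change ((ψ x w).val : G) = (w.val : G)
      rw [hval hQR]
      have hC : (w.val : G) ∈ centralizer (E : Set G) := mem_centralizer_iff.2 fun e he' =>
        mul_inv_eq_iff_eq_mul.1 (((hval hER ⟨e, he'⟩ w).symm).trans
          (congrArg (fun v : Baer ↥R => (v.val : G)) (hw ⟨e, he'⟩)))
      rw [mem_centralizer_iff.1 (hfix ⟨w.val.2, hC⟩) x x.2, mul_inv_cancel_right])
  intro r hr
  refine mem_centralizer_iff.2 fun x hx => ?_
  exact mul_inv_eq_iff_eq_mul.1 (((hval hQR ⟨x, hx⟩ ⟨⟨r, hr⟩⟩).symm).trans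
    (congrArg (fun v : Baer ↥R => (v.val : G)) (hall ⟨⟨r, hr⟩⟩ ⟨x, hx⟩)))

/-- `Q` centralizes `R` in the class two case. -/
theorem le_centralizer_of_fixed_class_two {E Q : Subgroup G} (hE : IsPGroup p ↥E)
    (hEc : ∀ a ∈ E, ∀ b ∈ E, a * b = b * a)
    (hQ : (Nat.card ↥Q).Coprime p) (hEQ : E ≤ normalizer (Q : Set G)) {R : Subgroup G}
    (hR : IsPGroup p ↥R) (hER : E ≤ normalizer (R : Set G)) (hQR : Q ≤ normalizer (R : Set G))
    (hfix : R ⊓ centralizer (E : Set G) ≤ centralizer (Q : Set G))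
    (hclass : ⁅⁅R ⊔ E, R ⊔ E⁆, R ⊔ E⁆ = ⊥) : R ≤ centralizer (Q : Set G) := by
  have hcen : ∀ e ∈ E, ∀ r ∈ R, e * r * e⁻¹ * r⁻¹ ∈ R ⊓ centralizer (E : Set G) := fun e he r hr =>
    mem_inf.2 ⟨mul_mem ((mem_normalizer_iff.1 (hER he) r).1 hr) (inv_mem hr), centralizer_le
      (s := (E : Set G)) (t := ((R ⊔ E : Subgroup G) : Set G))
      (SetLike.coe_subset_coe.2 le_sup_right) (commutator_eq_bot_iff_le_centralizer.1 hclass
        (commutator_mem_commutator (mem_sup_right he) (mem_sup_left hr)))⟩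
  have hkey : ∀ x ∈ Q, ∀ e ∈ E, x⁻¹ * (e * x * e⁻¹) ∈ centralizer (R : Set G) := by
    intro x hx e he
    refine mem_centralizer_iff.2 fun r hr => ?_
    let c := e * r * e⁻¹ * r⁻¹
    let r' := x * r * x⁻¹
    have hr' : r' ∈ R := (mem_normalizer_iff.1 (hQR hx) r).1 hr
    let c' := e * r' * e⁻¹ * r'⁻¹
    let x' := e * x * e⁻¹
    have hx' : x' ∈ Q := (mem_normalizer_iff.1 (hEQ he) x).1 hx
    have hc := hcen e he r hr
    have hc' := hcen e he r' hr'
    have hcC : ∀ y ∈ Q, y * c = c * y := fun y hy => mem_centralizer_iff.1 (hfix hc) y hy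
    have hcC' : ∀ y ∈ Q, y * c' = c' * y := fun y hy => mem_centralizer_iff.1 (hfix hc') y hy
    let d := c⁻¹ * c'
    have hdC : ∀ y ∈ Q, y * d = d * y := fun y hy =>
      (((show Commute y c from hcC y hy).inv_right).mul_right (hcC' y hy)).eq
    have h1 : (x⁻¹ * x') * r * (x⁻¹ * x')⁻¹ = d * r := by
      have e1 : x' * (c * r) * x'⁻¹ = c' * r' := by show _ = c' * (x * r * x⁻¹); simp only [c, c', x', r']; group
      have e2 : x' * r * x'⁻¹ = d * r' := by
        rw [← mul_assoc x', hcC x' hx'] at e1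
        calc x' * r * x'⁻¹ = c⁻¹ * (c * x' * r * x'⁻¹) := by group
          _ = d * r' := by rw [e1]; simp only [d, mul_assoc]
      calc (x⁻¹ * x') * r * (x⁻¹ * x')⁻¹ = x⁻¹ * (x' * r * x'⁻¹) * x := by group
        _ = (x⁻¹ * d) * r' * x := by rw [e2]; group
        _ = d * r := by rw [hdC _ (inv_mem hx)]; simp only [r']; group
    have hy : x⁻¹ * x' ∈ Q := mul_mem (inv_mem hx) hx'
    have := translate_eq_one hR (orderOf_coprime_of_mem hQ hy)
      (mul_mem (inv_mem hc.1) hc'.1) (hdC _ hy) h1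
    rw [show d = 1 from this, one_mul] at h1
    exact (mul_inv_eq_iff_eq_mul.1 h1).symm
  rw [le_centralizer_iff]
  intro x hx
  let N := Q ⊓ centralizer (R : Set G)
  have hEN : E ≤ normalizer (N : Set G) := (le_inf hEQ (hER.trans fun g hg => by
    exact Coprime.normalizer_le_normalizer_centralizer R hg)).trans inf_normalizer_le_normalizer_inf
  obtain ⟨n, hn⟩ := IsPGroup.iff_card.1 hE
  obtain ⟨c, hc, hcN⟩ := Coprime.exists_centralizer_mem_coset (k := x) hEN
    (hn ▸ ((hQ.coprime_dvd_left (card_dvd_of_le inf_le_left)).symm.pow_left n))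
    (Or.inl (Group.isSolvable_of_comm fun a b => Subtype.ext (hEc a a.2 b b.2)))
    fun e he => mem_inf.2 ⟨mul_mem (inv_mem hx) ((mem_normalizer_iff.1 (hEQ he) x).1 hx), hkey x hx e he⟩
  have hcQ : c ∈ Q := by simpa using mul_mem hx hcN.1
  have hcE : E ≤ centralizer ((zpowers c : Subgroup G) : Set G) := le_centralizer_iff.1 (zpowers_le.2 hc)
  have hcR := Coprime.le_centralizer_of_pq (Q := zpowers c) hE
    (hQ.coprime_dvd_left (card_dvd_of_le (zpowers_le.2 hcQ))) hR hcE hER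
    (zpowers_le.2 (hQR hcQ)) (hfix.trans (centralizer_le (SetLike.coe_subset_coe.2 (zpowers_le.2 hcQ))))
  simpa using mul_mem (hcR (mem_zpowers c)) (inv_mem hcN.2)

end Cfsg.Agent.Lib.Components
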