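import Cfsg.Agent.Lib.Components.Signalizer
import Cfsg.Agent.Lib.Components.Bender
import Cfsg.Agent.Lib.Involution.Basic
import Mathlib.GroupTheory.Nilpotent

/-!
Commuting dihedral groups in the product of an elementary abelian 2-group and an odd solvable group
on which it acts faithfully (Thompson).
-/

set_option autoImplicit false
set_option linter.style.haveILetI false
set_option linter.unusedSectionVars false

namespace Cfsg.Agent.Lib.Components.Dihedral

open Subgroup Cfsg.Agent.Lib.Coprime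
open scoped Pointwise commutatorElement

variable {G : Type*} [Group G] [Finite G] {A F : Subgroup G}

lemma mul_self_eq (hA : IsElementaryAbelian 2 A) {a : G} (ha : a ∈ A) : a * a = 1 := by
  rw [← pow_two]; exact hA.2 a ha

lemma inv_eq (hA : IsElementaryAbelian 2 A) {a : G} (ha : a ∈ A) : a⁻¹ = a :=
  inv_eq_of_mul_eq_one_right (mul_self_eq hA ha)

lemma eq_of_mul_self_eq (hodd : Odd (Nat.card ↥F)) {x y : G} (hx : x ∈ F) (hy : y ∈ F)
    (h : x * x = y * y) : x = y := by
  have hc : (Nat.card ↥F).Coprime 2 := Nat.coprime_two_right.2 hodd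
  exact congrArg Subtype.val ((powCoprime hc).injective (a₁ := ⟨x, hx⟩) (a₂ := ⟨y, hy⟩)
    (Subtype.ext (by simpa [powCoprime_apply, pow_two] using h)))

/-- A step of the construction. -/
structure State (A F : Subgroup G) (m : ℕ) where
  a : Fin m → G
  x : Fin m → G
  B : Subgroup G
  hB : B ≤ A
  ha : ∀ i, a i ∈ A
  hx : ∀ i, x i ∈ F
  hx1 : ∀ i, x i ≠ 1
  hinv : ∀ i, a i * x i * a i = (x i)⁻¹
  hoff : ∀ i j, i ≠ j → a i * x j = x j * a i
  hxx : ∀ i j, x i * x j = x j * x i
  hBx : ∀ b ∈ B, ∀ i, b * x i = x i * b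
  hgen : A ≤ (⨆ i, zpowers (a i)) ⊔ B
  hcard : Nat.card ↥B * 2 ^ m = Nat.card ↥A

variable [Group.IsNilpotent ↥F]

theorem step (hA : IsElementaryAbelian 2 A) (hodd : Odd (Nat.card ↥F)) (hAF : A ≤ normalizer (F : Set G))
    (hfaith : A ⊓ centralizer (F : Set G) = ⊥) {m : ℕ} (s : State A F m) (hB : s.B ≠ ⊥) :
    Nonempty (State A F (m + 1)) := by
  classical
  haveI : Fact (Nat.Prime 2) := ⟨Nat.prime_two⟩
  let Z : ℕ → Subgroup G := fun k => (Subgroup.upperCentralSeries ↥F k).map F.subtype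
  have hZA : ∀ k, A ≤ normalizer (Z k : Set G) := fun k => by
    refine Sig.inv_iff.1 ?_
    rintro b hb _ ⟨y, hy, rfl⟩
    let e : ↥F ≃* ↥F := F.normalizerMonoidHom ⟨b, hAF hb⟩
    exact ⟨e y, (characteristic_iff_map_le.1 inferInstance e) (mem_map_of_mem e.toMonoidHom hy), rfl⟩
  have hex : ∃ k, ¬ Z k ≤ centralizer (s.B : Set G) := by
    refine ⟨Group.nilpotencyClass ↥F, fun h => hB (le_bot_iff.1 (hfaith ▸ le_inf s.hB ?_))⟩
    rw [Subgroup.le_centralizer_iff]
    refine le_trans (le_of_eq ?_) h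
    show F = (Subgroup.upperCentralSeries ↥F _).map F.subtype
    rw [Subgroup.upperCentralSeries_nilpotencyClass, ← MonoidHom.range_eq_map, range_subtype]
  obtain ⟨k, hk, hmin⟩ : ∃ k, ¬ Z (k + 1) ≤ centralizer (s.B : Set G) ∧ Z k ≤ centralizer (s.B : Set G) := by
    have h0 : Nat.find hex ≠ 0 := fun e => by
      have := Nat.find_spec hex
      rw [e] at this
      exact this (by simp [Z])
    refine ⟨Nat.find hex - 1, ?_, not_not.1 (Nat.find_min hex (by omega))⟩
    rw [Nat.sub_add_cancel (Nat.pos_of_ne_zero h0)]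
    exact Nat.find_spec hex
  let T := Z (k + 1)
  have hTF : T ≤ F := map_subtype_le _
  have hcop : (Nat.card ↥A).Coprime (Nat.card ↥T) := by
    obtain ⟨n, hn⟩ := Sig.card_eq_pow hA
    rw [hn]
    exact Nat.Coprime.pow_left n ((Nat.coprime_two_left).2 (hodd.of_dvd_nat (card_dvd_of_le hTF)))
  obtain ⟨H, hHA, hHi, hH⟩ : ∃ H : Subgroup G, H ≤ A ∧ H.relIndex A ≤ 2 ∧
      ¬ T ⊓ centralizer (H : Set G) ≤ centralizer (s.B : Set G) := by
    by_cases h4 : 2 ^ 2 ≤ Nat.card ↥A
    · by_contra hno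
      push Not at hno
      exact hk ((Sig.gen_hyperplane hA h4 hcop (hZA _)).trans
        (iSup_le fun H => hno H H.2.1 H.2.2))
    · refine ⟨⊥, bot_le, ?_, fun h => hk (le_trans (le_inf le_rfl ?_) h)⟩
      · rw [relIndex_bot_left]
        obtain ⟨n, hn⟩ := Sig.card_eq_pow hA
        rw [hn] at h4 ⊢
        rcases n with _ | _ | n
        · simp
        · simp
        · exact absurd (Nat.pow_le_pow_right (by norm_num) (by omega)) h4
      · intro y _
        exact mem_centralizer_iff.2 fun z hz => by rw [mem_bot.1 hz, one_mul, mul_one]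
  obtain ⟨y, ⟨hyT, hyH⟩, hyB⟩ := SetLike.not_le_iff_exists.1 hH
  obtain ⟨b, hb, hby⟩ : ∃ b ∈ s.B, b * y ≠ y * b := by
    by_contra h
    push Not at h
    exact hyB (mem_centralizer_iff.2 h)
  have hbA := s.hB hb
  have hbb := mul_self_eq hA hbA
  have hbH : b ∉ H := fun h => hby (mem_centralizer_iff.1 hyH b h)
  have hi2 : H.relIndex A = 2 := by
    have h0 : H.relIndex A ≠ 0 := index_ne_zero_of_finite
    have h1 : H.relIndex A ≠ 1 := fun e => hbH (relIndex_eq_one.1 e hbA)
    omega
  have hprod : ∀ c ∈ A, c ∉ H → c * b ∈ H := fun c hc hcH => by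
    have h := (mul_mem_iff_of_index_two (H := H.subgroupOf A) hi2 (a := ⟨c, hc⟩) (b := ⟨b, hbA⟩)).2
      ⟨fun h => absurd h hcH, fun h => absurd h hbH⟩
    exact h
  let u := y⁻¹ * (b * y * b)
  have hbyb : b * y * b ∈ T := by
    have := (mem_normalizer_iff.1 (hZA _ hbA) y).1 hyT
    rwa [inv_eq hA hbA] at this
  have huT : u ∈ T := mul_mem (inv_mem hyT) hbyb
  have hu1 : u ≠ 1 := fun e => hby (by
    have e' : y = b * y * b := inv_mul_eq_one.1 e
    calc b * y = b * y * (b * b) := by rw [hbb, mul_one]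
      _ = (b * y * b) * b := by group
      _ = y * b := by rw [← e'])
  have huinv : b * u * b = u⁻¹ := by
    calc b * u * b = b * y⁻¹ * b * (y * (b * b)) := by simp only [u]; group
      _ = b⁻¹ * y⁻¹ * b⁻¹ * y := by rw [hbb, mul_one, inv_eq hA hbA]
      _ = u⁻¹ := by simp only [u]; group
  have huH : ∀ c ∈ H, c * u = u * c := fun c hc => by
    have h1 : Commute c y := mem_centralizer_iff.1 hyH c hc
    have h2 : Commute c b := Sig.comm_of hA (hHA hc) hbA
    exact (h1.inv_right.mul_right ((h2.mul_right h1).mul_right h2)).eq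
  have hsbx : ∀ i, b * s.x i = s.x i * b := s.hBx b hb
  have hux : ∀ i, u * s.x i = s.x i * u := by
    intro i
    obtain ⟨w, hw, hwu⟩ := huT
    have hZk : ⁅u, s.x i⁆ ∈ Z k := by
      refine ⟨⁅w, ⟨s.x i, s.hx i⟩⁆, Subgroup.mem_upperCentralSeries_succ_iff.1 hw _, ?_⟩
      simp [← hwu, map_commutatorElement, commutatorElement_def]
    have hc : b * ⁅u, s.x i⁆ = ⁅u, s.x i⁆ * b := mem_centralizer_iff.1 (hmin hZk) b hb
    -- conjugation by `b` inverts `u` and fixes `x i`
    have h1 : ⁅u⁻¹, s.x i⁆ = ⁅u, s.x i⁆ := by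
      have e : MulAut.conj b ⁅u, s.x i⁆ = ⁅u⁻¹, s.x i⁆ := by
        rw [show MulAut.conj b ⁅u, s.x i⁆ = ⁅MulAut.conj b u, MulAut.conj b (s.x i)⁆ from
          map_commutatorElement (MulAut.conj b) u (s.x i)]
        rw [MulAut.conj_apply, MulAut.conj_apply, inv_eq hA hbA, huinv, hsbx i, mul_assoc, hbb, mul_one]
      rw [← e, MulAut.conj_apply, hc, mul_inv_cancel_right]
    have h2 : (s.x i * u * (s.x i)⁻¹) * (s.x i * u * (s.x i)⁻¹) = u * u := by
      simp only [commutatorElement_def, inv_inv] at h1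
      calc (s.x i * u * (s.x i)⁻¹) * (s.x i * u * (s.x i)⁻¹)
          = u * (u⁻¹ * s.x i * u * (s.x i)⁻¹) * (s.x i * u * (s.x i)⁻¹) := by group
        _ = u * (u * s.x i * u⁻¹ * (s.x i)⁻¹) * (s.x i * u * (s.x i)⁻¹) := by rw [h1]
        _ = u * u := by group
    have hF : s.x i * u * (s.x i)⁻¹ ∈ F :=
      mul_mem (mul_mem (s.hx i) (hTF ⟨w, hw, hwu⟩)) (inv_mem (s.hx i))
    exact (mul_inv_eq_iff_eq_mul.1 (eq_of_mul_self_eq hodd hF (hTF ⟨w, hw, hwu⟩) h2)).symm
  let a' : Fin m → G := fun i => if s.a i ∈ H then s.a i else s.a i * b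
  have ha' : ∀ i, a' i ∈ H := fun i => by
    by_cases h : s.a i ∈ H
    · simp only [a', if_pos h]; exact h
    · simp only [a', if_neg h]; exact hprod _ (s.ha i) h
  have hax : ∀ i j, a' i * s.x j * a' i = s.a i * s.x j * s.a i := fun i j => by
    by_cases h : s.a i ∈ H
    · simp only [a', if_pos h]
    · simp only [a', if_neg h]
      calc s.a i * b * s.x j * (s.a i * b) = s.a i * (b * s.x j) * (b * s.a i) := by
            rw [← Sig.comm_of hA (s.ha i) hbA]; group
        _ = s.a i * (s.x j * b) * (b * s.a i) := by rw [hsbx j]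
        _ = s.a i * s.x j * (b * b) * s.a i := by group
        _ = _ := by rw [hbb, mul_one]
  refine ⟨{ a := Fin.snoc a' b, x := Fin.snoc s.x u, B := s.B ⊓ H, hB := inf_le_right.trans hHA,
            ha := ?_, hx := ?_, hx1 := ?_, hinv := ?_, hoff := ?_, hxx := ?_, hBx := ?_, hgen := ?_,
            hcard := ?_ }⟩
  · intro i
    refine Fin.lastCases ?_ (fun i => ?_) i
    · simpa using hbA
    · simpa using hHA (ha' i)
  · intro i
    refine Fin.lastCases ?_ (fun i => ?_) i
    · simpa using hTF huT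
    · simpa using s.hx i
  · intro i
    refine Fin.lastCases ?_ (fun i => ?_) i
    · simpa using hu1
    · simpa using s.hx1 i
  · intro i
    refine Fin.lastCases ?_ (fun i => ?_) i
    · simpa using huinv
    · simpa [hax i i] using s.hinv i
  · intro i
    refine Fin.lastCases ?_ (fun i => ?_) i <;> intro j <;> refine Fin.lastCases ?_ (fun j => ?_) j <;>
      intro hij
    · exact absurd rfl hij
    · simpa using hsbx j
    · simpa using huH _ (ha' i)
    · have hij' : i ≠ j := fun e => hij (by rw [e])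
      have e := hax i j
      rw [show s.a i * s.x j * s.a i = s.x j by
        rw [s.hoff i j hij', mul_assoc, mul_self_eq hA (s.ha i), mul_one]] at e
      simp only [Fin.snoc_castSucc]
      calc a' i * s.x j = a' i * s.x j * (a' i * a' i) := by rw [mul_self_eq hA (hHA (ha' i)), mul_one]
        _ = s.x j * a' i := by rw [← mul_assoc, e]
  · intro i
    refine Fin.lastCases ?_ (fun i => ?_) i <;> intro j <;> refine Fin.lastCases ?_ (fun j => ?_) j
    · rfl
    · simpa using hux j
    · simpa using (hux i).symm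
    · simpa using s.hxx i j
  · intro c hc i
    refine Fin.lastCases ?_ (fun i => ?_) i
    · simpa using huH c hc.2
    · simpa using s.hBx c hc.1 i
  · refine s.hgen.trans (sup_le (iSup_le fun i => ?_) ?_)
    · rw [zpowers_le]
      have h1 : a' i ∈ (⨆ j, zpowers (Fin.snoc (α := fun _ => G) a' b j)) ⊔ (s.B ⊓ H) :=
        mem_sup_left (mem_iSup_of_mem (Fin.castSucc i) (by simp))
      have h2 : b ∈ (⨆ j, zpowers (Fin.snoc (α := fun _ => G) a' b j)) ⊔ (s.B ⊓ H) :=
        mem_sup_left (mem_iSup_of_mem (Fin.last m) (by simp))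
      by_cases h : s.a i ∈ H
      · simpa only [a', if_pos h] using h1
      · have := mul_mem h1 h2
        simpa only [a', if_neg h, mul_assoc, hbb, mul_one] using this
    · intro c hc
      have h2 : b ∈ (⨆ j, zpowers (Fin.snoc (α := fun _ => G) a' b j)) ⊔ (s.B ⊓ H) :=
        mem_sup_left (mem_iSup_of_mem (Fin.last m) (by simp))
      by_cases h : c ∈ H
      · exact mem_sup_right ⟨hc, h⟩
      · have := mul_mem (mem_sup_right (T := s.B ⊓ H) (S := ⨆ j, zpowers (Fin.snoc (α := fun _ => G) a' b j))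
          ⟨mul_mem hc hb, hprod c (s.hB hc) h⟩) h2
        rwa [mul_assoc, hbb, mul_one] at this
  · have h1 : (s.B ⊓ H).relIndex s.B = 2 := by
      rw [inf_comm, inf_relIndex_right]
      show (H.subgroupOf s.B).index = 2
      refine index_eq_two_iff.2 ⟨⟨b, hb⟩, fun c => ?_⟩
      by_cases h : (c : G) ∈ H
      · refine Or.inr ⟨h, fun h' => hbH ?_⟩
        have := mul_mem (inv_mem h) (show (c : G) * b ∈ H from h')
        rwa [inv_mul_cancel_left] at this
      · exact Or.inl ⟨hprod c (s.hB c.2) h, h⟩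
    have h2 := Sig.card_mul_relIndex (inf_le_left : s.B ⊓ H ≤ s.B)
    rw [h1] at h2
    rw [← s.hcard, ← h2, pow_succ]
    ring

theorem exists_final (hA : IsElementaryAbelian 2 A) (hodd : Odd (Nat.card ↥F))
    (hAF : A ≤ normalizer (F : Set G)) (hfaith : A ⊓ centralizer (F : Set G) = ⊥) :
    ∃ m, ∃ s : State A F m, s.B = ⊥ := by
  have key : ∀ n, ∀ m, ∀ s : State A F m, Nat.card ↥s.B = n → ∃ m', ∃ s' : State A F m', s'.B = ⊥ := by
    intro n
    induction n using Nat.strongRecOn with | ind n ih => ?_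
    intro m s hn
    by_cases hB : s.B = ⊥
    · exact ⟨m, s, hB⟩
    obtain ⟨t⟩ := step hA hodd hAF hfaith s hB
    refine ih _ ?_ _ t rfl
    have := t.hcard.trans s.hcard.symm
    rw [pow_succ, mul_comm (2 ^ m) 2, ← mul_assoc] at this
    have := Nat.eq_of_mul_eq_mul_right (by positivity) this
    have := Nat.card_pos (α := ↥t.B)
    omega
  exact key _ 0 { a := Fin.elim0, x := Fin.elim0, B := A, hB := le_rfl, ha := fun i => i.elim0,
                  hx := fun i => i.elim0, hx1 := fun i => i.elim0, hinv := fun i => i.elim0,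
                  hoff := fun i => i.elim0, hxx := fun i => i.elim0, hBx := fun _ _ i => i.elim0,
                  hgen := le_sup_right, hcard := by simp } rfl

end Cfsg.Agent.Lib.Components.Dihedral
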